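import Mathlib
import Cfsg.Agent.H895.Count

/-!
# 2-transitive groups: two-point stabilisers and lines
-/

set_option autoImplicit false

namespace Cfsg.Agent.H895

open MulAction Finset

section

variable {G Ω : Type*} [Group G] [Fintype G] [MulAction G Ω] [Fintype Ω]

/-- 2-transitivity in elementary terms. -/
def TwoT (G Ω : Type*) [Group G] [MulAction G Ω] : Prop :=
  ∀ x y x' y' : Ω, x ≠ y → x' ≠ y' → ∃ g : G, g • x = x' ∧ g • y = y'

open Classical in
/-- The two-point stabiliser as a finset. -/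
noncomputable def pst (G : Type*) {Ω : Type*} [Group G] [Fintype G] [MulAction G Ω] (x y : Ω) :
    Finset G :=
  univ.filter (fun g => g • x = x ∧ g • y = y)

omit [Fintype Ω] in
theorem mem_pst {x y : Ω} {g : G} : g ∈ pst G x y ↔ g • x = x ∧ g • y = y := by
  simp [pst]

omit [Fintype Ω] in
theorem pst_sum_eq {M : Type*} [AddCommMonoid M] (w : G → M) (hw : ∀ g k : G, w (k * g * k⁻¹) = w g)
    {a b x y : Ω} (k : G) (hx : k • a = x) (hy : k • b = y) :
    ∑ g ∈ pst G x y, w g = ∑ g ∈ pst G a b, w g := by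
  refine (Finset.sum_bij' (fun g _ => k * g * k⁻¹) (fun g _ => k⁻¹ * g * k) ?_ ?_ ?_ ?_ ?_).symm
  · intro g hg
    rw [mem_pst] at hg ⊢
    rw [← hx, ← hy]
    constructor
    · rw [smul_smul, mul_assoc, inv_mul_cancel, mul_one, mul_smul, hg.1]
    · rw [smul_smul, mul_assoc, inv_mul_cancel, mul_one, mul_smul, hg.2]
  · intro g hg
    rw [mem_pst] at hg ⊢
    constructor
    · rw [mul_smul, mul_smul, hx, hg.1, ← hx, inv_smul_smul]
    · rw [mul_smul, mul_smul, hy, hg.2, ← hy, inv_smul_smul]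
  · intro g _; group
  · intro g _; group
  · intro g _; rw [hw]

/-- Double counting over ordered pairs of distinct fixed points. -/
theorem double_count (h2 : TwoT G Ω) (w : G → ℚ) (hw : ∀ g k : G, w (k * g * k⁻¹) = w g)
    {a b : Ω} (hab : a ≠ b) :
    ∑ g : G, (((fixF Ω g).card : ℚ) ^ 2 - (fixF Ω g).card) * w g =
      ((Fintype.card Ω : ℚ) ^ 2 - Fintype.card Ω) * ∑ g ∈ pst G a b, w g := by
  classical
  have h1 : ∑ p ∈ (univ : Finset Ω).offDiag, ∑ g ∈ pst G p.1 p.2, w g =
      ∑ g : G, ∑ _p ∈ (fixF Ω g).offDiag, w g := by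
    refine Finset.sum_comm' ?_
    intro p g
    rw [mem_pst, Finset.mem_offDiag, Finset.mem_offDiag, mem_fixF, mem_fixF]
    simp only [mem_univ, true_and, and_true]
    tauto
  have h3 : ∑ p ∈ (univ : Finset Ω).offDiag, ∑ g ∈ pst G p.1 p.2, w g =
      ∑ p ∈ (univ : Finset Ω).offDiag, ∑ g ∈ pst G a b, w g := by
    refine Finset.sum_congr rfl ?_
    intro p hp
    rw [Finset.mem_offDiag] at hp
    obtain ⟨k, hk1, hk2⟩ := h2 a b p.1 p.2 hab hp.2.2
    exact pst_sum_eq w hw k hk1 hk2
  have hcard : ∀ s : Finset Ω, ((s.offDiag.card : ℕ) : ℚ) = (s.card : ℚ) ^ 2 - s.card := by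
    intro s
    rw [Finset.offDiag_card, Nat.cast_sub (Nat.le_mul_self _)]
    push_cast; ring
  rw [h3, Finset.sum_const, nsmul_eq_mul, hcard, Finset.card_univ] at h1
  rw [h1]
  refine Finset.sum_congr rfl ?_
  intro g _
  rw [Finset.sum_const, nsmul_eq_mul, hcard]

omit [Fintype Ω] in
theorem pst_card_eq (h2 : TwoT G Ω) {a b x y : Ω} (hab : a ≠ b) (hxy : x ≠ y) :
    (pst G x y).card = (pst G a b).card := by
  obtain ⟨k, hk1, hk2⟩ := h2 a b x y hab hxy
  have := pst_sum_eq (G := G) (M := ℕ) (fun _ => 1) (fun _ _ => rfl) k hk1 hk2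
  simpa using this

open Classical in
/-- The line through two points: the fixed points of the two-point stabiliser. -/
noncomputable def line (G : Type*) {Ω : Type*} [Group G] [MulAction G Ω] [Fintype Ω] (x y : Ω) :
    Finset Ω :=
  univ.filter (fun z => ∀ g : G, g • x = x → g • y = y → g • z = z)

omit [Fintype G] in
theorem mem_line {x y z : Ω} : z ∈ line G x y ↔ ∀ g : G, g • x = x → g • y = y → g • z = z := by
  simp [line]

omit [Fintype G] in
theorem left_mem_line (x y : Ω) : x ∈ line G x y := mem_line.2 fun _ h _ => h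

omit [Fintype G] in
theorem right_mem_line (x y : Ω) : y ∈ line G x y := mem_line.2 fun _ _ h => h

theorem pst_eq (h2 : TwoT G Ω) {x y u v : Ω} (hxy : x ≠ y) (huv : u ≠ v) (hu : u ∈ line G x y)
    (hv : v ∈ line G x y) : pst G x y = pst G u v := by
  refine Finset.eq_of_subset_of_card_le ?_ (pst_card_eq h2 hxy huv).le
  intro g hg
  rw [mem_pst] at hg ⊢
  exact ⟨mem_line.1 hu g hg.1 hg.2, mem_line.1 hv g hg.1 hg.2⟩

theorem mem_line_iff_pst {x y z : Ω} : z ∈ line G x y ↔ ∀ g ∈ pst G x y, g • z = z := by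
  rw [mem_line]
  constructor
  · intro h g hg
    rw [mem_pst] at hg
    exact h g hg.1 hg.2
  · intro h g h1 h2
    exact h g (mem_pst.2 ⟨h1, h2⟩)

theorem line_eq (h2 : TwoT G Ω) {x y u v : Ω} (hxy : x ≠ y) (huv : u ≠ v) (hu : u ∈ line G x y)
    (hv : v ∈ line G x y) : line G u v = line G x y := by
  ext z
  rw [mem_line_iff_pst, mem_line_iff_pst, pst_eq h2 hxy huv hu hv]

omit [Fintype G] in
theorem line_card_eq (h2 : TwoT G Ω) {a b x y : Ω} (hab : a ≠ b) (hxy : x ≠ y) :
    (line G x y).card = (line G a b).card := by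
  classical
  obtain ⟨k, hk1, hk2⟩ := h2 a b x y hab hxy
  refine (Finset.card_bij' (fun ω _ => k • ω) (fun ω _ => k⁻¹ • ω) ?_ ?_ ?_ ?_).symm
  · intro z hz
    rw [mem_line] at hz ⊢
    intro g hg1 hg2
    have := hz (k⁻¹ * g * k) (by rw [mul_smul, mul_smul, hk1, hg1, ← hk1, inv_smul_smul])
      (by rw [mul_smul, mul_smul, hk2, hg2, ← hk2, inv_smul_smul])
    rw [mul_smul, mul_smul, inv_smul_eq_iff] at this
    exact this
  · intro z hz
    rw [mem_line] at hz ⊢
    intro g hg1 hg2
    have := hz (k * g * k⁻¹) (by rw [← hk1, smul_smul, mul_assoc, inv_mul_cancel, mul_one, mul_smul, hg1])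
      (by rw [← hk2, smul_smul, mul_assoc, inv_mul_cancel, mul_one, mul_smul, hg2])
    rw [mul_smul, mul_smul] at this
    rw [eq_inv_smul_iff]
    exact this
  · intro z _; simp
  · intro z _; simp

omit [Fintype G] in
theorem line_subset_fixF {g : G} {x y : Ω} (hx : g • x = x) (hy : g • y = y) :
    line G x y ⊆ fixF Ω g := by
  intro z hz
  rw [mem_fixF]
  exact mem_line.1 hz g hx hy

omit [Fintype G] [Fintype Ω] in
theorem exists_moved [FaithfulSMul G Ω] {g : G} (hg : g ≠ 1) : ∃ z : Ω, g • z ≠ z := by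
  by_contra h
  push Not at h
  exact hg (FaithfulSMul.eq_of_smul_eq_smul (α := Ω) (fun z => by rw [h z, one_smul]))

/-- The subspace bound. -/
theorem fix_bound (h2 : TwoT G Ω) [FaithfulSMul G Ω] {a b : Ω} (hab : a ≠ b) {g : G} (hg : g ≠ 1) :
    (fixF Ω g).card * ((line G a b).card - 1) ≤ Fintype.card Ω - 1 := by
  classical
  obtain ⟨z, hz⟩ := exists_moved (Ω := Ω) hg
  have hzF : ∀ x ∈ fixF Ω g, z ≠ x := by
    intro x hx h
    rw [mem_fixF] at hx
    rw [h] at hz
    exact hz hx
  have hdis : ∀ x ∈ fixF Ω g, ∀ y ∈ fixF Ω g, x ≠ y →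
      Disjoint ((line G z x).erase z) ((line G z y).erase z) := by
    intro x hx y hy hxy
    rw [Finset.disjoint_left]
    intro u hu hu'
    rw [Finset.mem_erase] at hu hu'
    have e1 := line_eq h2 (hzF x hx) hu.1 hu.2 (left_mem_line z x)
    have e2 := line_eq h2 (hzF y hy) hu.1 hu'.2 (left_mem_line z y)
    have hx' : x ∈ line G u z := by rw [e1]; exact right_mem_line z x
    have hy' : y ∈ line G u z := by rw [e2]; exact right_mem_line z y
    have e3 := line_eq h2 hu.1 hxy hx' hy'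
    have hz' : z ∈ line G x y := by rw [e3]; exact right_mem_line u z
    exact hz (mem_fixF.1 (line_subset_fixF (mem_fixF.1 hx) (mem_fixF.1 hy) hz'))
  have h1 := Finset.card_biUnion hdis
  have h3 : ∑ x ∈ fixF Ω g, ((line G z x).erase z).card =
      (fixF Ω g).card * ((line G a b).card - 1) := by
    rw [Finset.sum_congr rfl (g := fun _ => (line G a b).card - 1), Finset.sum_const, smul_eq_mul]
    intro x hx
    rw [Finset.card_erase_of_mem (left_mem_line z x), line_card_eq h2 hab (hzF x hx)]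
  rw [h3] at h1
  rw [← h1]
  have h4 : (Finset.univ.erase z).card = Fintype.card Ω - 1 := by
    rw [Finset.card_erase_of_mem (mem_univ z), Finset.card_univ]
  rw [← h4]
  refine Finset.card_le_card ?_
  intro u hu
  rw [Finset.mem_biUnion] at hu
  obtain ⟨x, _, hu⟩ := hu
  rw [Finset.mem_erase] at hu ⊢
  exact ⟨hu.1, mem_univ u⟩

/-- The lines through a point partition the rest. -/
theorem dvd_card_sub_one (h2 : TwoT G Ω) {a b : Ω} (hab : a ≠ b) :
    ((line G a b).card - 1) ∣ Fintype.card Ω - 1 := by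
  classical
  have h4 : (Finset.univ.erase a).card = Fintype.card Ω - 1 := by
    rw [Finset.card_erase_of_mem (mem_univ a), Finset.card_univ]
  have h1 := Finset.card_eq_sum_card_image (fun x => line G a x) (Finset.univ.erase a)
  rw [h4] at h1
  rw [h1]
  refine Finset.dvd_sum ?_
  intro l hl
  rw [Finset.mem_image] at hl
  obtain ⟨x, hx, rfl⟩ := hl
  rw [Finset.mem_erase] at hx
  have e : (Finset.univ.erase a).filter (fun y => line G a y = line G a x) = (line G a x).erase a := by
    ext y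
    rw [Finset.mem_filter, Finset.mem_erase, Finset.mem_erase]
    constructor
    · rintro ⟨⟨hy, _⟩, h⟩
      exact ⟨hy, by rw [← h]; exact right_mem_line a y⟩
    · rintro ⟨hy, h⟩
      exact ⟨⟨hy, mem_univ y⟩, line_eq h2 hx.1.symm hy.symm (left_mem_line a x) h⟩
  rw [e, Finset.card_erase_of_mem (left_mem_line a x), line_card_eq h2 hab hx.1.symm]

end

end Cfsg.Agent.H895
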