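import Mathlib
import Cfsg.Agent.H895.TwoTrans

/-!
# The two-point stabiliser acting on the points
-/

set_option autoImplicit false

namespace Cfsg.Agent.H895

open MulAction Finset

section

variable {G Ω : Type*} [Group G] [Fintype G] [MulAction G Ω] [Fintype Ω]

/-- The two-point stabiliser as a subgroup. -/
def pstS (G : Type*) {Ω : Type*} [Group G] [MulAction G Ω] (x y : Ω) : Subgroup G :=
  stabilizer G x ⊓ stabilizer G y

omit [Fintype G] [Fintype Ω] in
theorem mem_pstS {x y : Ω} {g : G} : g ∈ pstS G x y ↔ g • x = x ∧ g • y = y := Iff.rfl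

omit [Fintype Ω] in
theorem natCard_pstS (x y : Ω) : Nat.card (pstS G x y) = (pst G x y).card := by
  refine Nat.subtype_card _ ?_
  intro g
  rw [mem_pst, mem_pstS]

theorem burnside_pst (a b : Ω) :
    ∃ c : ℕ, ∑ g ∈ pst G a b, (fixF Ω g).card = c * (pst G a b).card := by
  classical
  have h := H393.burnside_subgroup G Ω (pstS G a b)
  rw [natCard_pstS] at h
  refine ⟨Nat.card (orbitRel.Quotient (pstS G a b) Ω), ?_⟩
  rw [← h]
  refine Finset.sum_congr ?_ (fun g _ => (natCard_fixedBy g).symm)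
  ext g
  rw [mem_pst, Finset.mem_filter, mem_pstS]
  simp

open Classical in
/-- Number of elements of the two-point stabiliser fixing `ω`. -/
noncomputable def mst (G : Type*) {Ω : Type*} [Group G] [Fintype G] [MulAction G Ω] (a b ω : Ω) : ℕ :=
  ((pst G a b).filter (fun g => g • ω = ω)).card

theorem sum_fix_eq_sum_mst (a b : Ω) :
    ∑ g ∈ pst G a b, (fixF Ω g).card = ∑ ω : Ω, mst G a b ω := by
  classical
  have h := Finset.sum_card_bipartiteAbove_eq_sum_card_bipartiteBelow (s := pst G a b)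
    (t := (univ : Finset Ω)) (fun g ω => g • ω = ω)
  simp only [Finset.bipartiteAbove, Finset.bipartiteBelow] at h
  rw [show (∑ ω : Ω, mst G a b ω) = ∑ ω : Ω, ((pst G a b).filter (fun g => g • ω = ω)).card from
    Finset.sum_congr rfl (fun ω _ => by rw [mst]), ← h]
  refine Finset.sum_congr rfl (fun g _ => ?_)
  rw [fixF]

/-- The stabiliser of `ω` in the two-point stabiliser. -/
abbrev subS (G : Type*) {Ω : Type*} [Group G] [MulAction G Ω] (a b ω : Ω) : Subgroup (pstS G a b) :=
  (stabilizer G ω).subgroupOf (pstS G a b)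

omit [Fintype Ω] in
theorem natCard_subS (a b ω : Ω) : Nat.card (subS G a b ω) = mst G a b ω := by
  classical
  have h : Nat.card (subS G a b ω) = Nat.card {g : G // g ∈ pst G a b ∧ g • ω = ω} := by
    refine Nat.card_congr ⟨fun x => ⟨x.1.1, mem_pst.2 x.1.2, x.2⟩,
      fun x => ⟨⟨x.1, mem_pst.1 x.2.1⟩, x.2.2⟩, fun x => rfl, fun x => rfl⟩
  rw [h, mst]
  refine Nat.subtype_card _ ?_
  intro g
  rw [Finset.mem_filter]

omit [Fintype Ω] in
theorem mst_mul_index (a b ω : Ω) : mst G a b ω * (subS G a b ω).index = (pst G a b).card := by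
  rw [← natCard_subS, Subgroup.card_mul_index, natCard_pstS]

theorem mst_of_mem {a b ω : Ω} (h : ω ∈ line G a b) : mst G a b ω = (pst G a b).card := by
  classical
  rw [mst]
  congr 1
  refine Finset.filter_true_of_mem ?_
  intro g hg
  exact mem_line_iff_pst.1 h g hg

omit [Fintype Ω] in
theorem pst_card_pos (a b : Ω) : 0 < (pst G a b).card :=
  Finset.card_pos.2 ⟨1, mem_pst.2 ⟨one_smul _ _, one_smul _ _⟩⟩

theorem two_le_index {a b ω : Ω} (h : ω ∉ line G a b) : 2 ≤ (subS G a b ω).index := by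
  have h0 : (subS G a b ω).index ≠ 0 := Subgroup.FiniteIndex.index_ne_zero
  have h1 : (subS G a b ω).index ≠ 1 := by
    intro h1
    rw [Subgroup.index_eq_one] at h1
    apply h
    rw [mem_line]
    intro g hg1 hg2
    have : (⟨g, hg1, hg2⟩ : pstS G a b) ∈ subS G a b ω := by rw [h1]; trivial
    exact this
  omega

theorem two_mst_le {a b ω : Ω} (h : ω ∉ line G a b) : 2 * mst G a b ω ≤ (pst G a b).card := by
  have h1 := two_le_index (G := G) h
  have h2 := mst_mul_index (G := G) a b ω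
  nlinarith

omit [Fintype Ω] in
theorem index_eq_two {a b ω : Ω} (h : 2 * mst G a b ω = (pst G a b).card) :
    (subS G a b ω).index = 2 := by
  have h2 := mst_mul_index (G := G) a b ω
  have h3 := pst_card_pos (G := G) a b
  have h4 : mst G a b ω * (subS G a b ω).index = mst G a b ω * 2 := by omega
  exact Nat.eq_of_mul_eq_mul_left (by omega) h4

theorem iff_of_index_two {a b ω : Ω} (h : 2 * mst G a b ω = (pst G a b).card) {g k : G}
    (hg : g ∈ pst G a b) (hk : k ∈ pst G a b) :
    (g * k) • ω = ω ↔ (g • ω = ω ↔ k • ω = ω) :=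
  Subgroup.mul_mem_iff_of_index_two (index_eq_two h) (a := ⟨g, mem_pst.1 hg⟩) (b := ⟨k, mem_pst.1 hk⟩)

open Classical in
/-- `2 S = 2 f₀ J + ∑_{ω off the line} 2 m_ω`. -/
theorem two_mul_sum (a b : Ω) : 2 * ∑ g ∈ pst G a b, (fixF Ω g).card =
    2 * (line G a b).card * (pst G a b).card + ∑ ω ∈ (line G a b)ᶜ, 2 * mst G a b ω := by
  rw [sum_fix_eq_sum_mst, ← Finset.sum_add_sum_compl (line G a b), mul_add, Finset.mul_sum,
    Finset.mul_sum]
  congr 1
  · rw [Finset.sum_congr rfl (g := fun _ => 2 * (pst G a b).card), Finset.sum_const, smul_eq_mul]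
    · ring
    · intro ω hω; rw [mst_of_mem hω]
  
open Classical in
theorem two_mul_sum_le (a b : Ω) : 2 * ∑ g ∈ pst G a b, (fixF Ω g).card ≤
    (Fintype.card Ω + (line G a b).card) * (pst G a b).card := by
  rw [two_mul_sum]
  have h1 : ∑ ω ∈ (line G a b)ᶜ, 2 * mst G a b ω ≤ ∑ ω ∈ (line G a b)ᶜ, (pst G a b).card :=
    Finset.sum_le_sum fun ω hω => two_mst_le (Finset.mem_compl.1 hω)
  rw [Finset.sum_const, smul_eq_mul, Finset.card_compl] at h1
  have h2 : (line G a b).card ≤ Fintype.card Ω := Finset.card_le_univ _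
  obtain ⟨m, hm⟩ := Nat.exists_eq_add_of_le h2
  rw [hm] at h1 ⊢
  rw [Nat.add_sub_cancel_left] at h1
  nlinarith

open Classical in
theorem two_mst_eq {a b : Ω} (h : 2 * ∑ g ∈ pst G a b, (fixF Ω g).card =
    (Fintype.card Ω + (line G a b).card) * (pst G a b).card) {ω : Ω} (hω : ω ∉ line G a b) :
    2 * mst G a b ω = (pst G a b).card := by
  rw [two_mul_sum] at h
  have h2 : (line G a b).card ≤ Fintype.card Ω := Finset.card_le_univ _
  have h3 : ∑ ω ∈ (line G a b)ᶜ, 2 * mst G a b ω = ∑ ω ∈ (line G a b)ᶜ, (pst G a b).card := by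
    rw [Finset.sum_const, smul_eq_mul, Finset.card_compl]
    obtain ⟨m, hm⟩ := Nat.exists_eq_add_of_le h2
    rw [hm] at h ⊢
    rw [Nat.add_sub_cancel_left]
    nlinarith
  exact (Finset.sum_eq_sum_iff_of_le fun ω hω => two_mst_le (Finset.mem_compl.1 hω)).1 h3 ω
    (Finset.mem_compl.2 hω)

end

end Cfsg.Agent.H895
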