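import Mathlib
import Cfsg.Agent.H895.TwoStab

/-!
# The main inequality for 2-transitive groups
-/

set_option autoImplicit false

namespace Cfsg.Agent.H895

open MulAction Finset

section

variable {G Ω : Type*} [Group G] [Fintype G] [MulAction G Ω] [Fintype Ω]

omit [Fintype G] in
theorem fixF_one : fixF Ω (1 : G) = univ := by
  ext ω; simp [mem_fixF]

omit [Fintype Ω] in
theorem one_mem_pst (a b : Ω) : (1 : G) ∈ pst G a b := mem_pst.2 ⟨one_smul _ _, one_smul _ _⟩

theorem two_le_fix {a b : Ω} (hab : a ≠ b) {g : G} (hg : g ∈ pst G a b) : 2 ≤ (fixF Ω g).card := by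
  classical
  rw [mem_pst] at hg
  rw [← Finset.card_pair hab]
  refine Finset.card_le_card ?_
  intro z hz
  rw [Finset.mem_insert, Finset.mem_singleton] at hz
  rcases hz with rfl | rfl
  · exact mem_fixF.2 hg.1
  · exact mem_fixF.2 hg.2

omit [Fintype G] in
theorem two_le_line {a b : Ω} (hab : a ≠ b) : 2 ≤ (line G a b).card := by
  classical
  rw [← Finset.card_pair hab]
  refine Finset.card_le_card ?_
  intro z hz
  rw [Finset.mem_insert, Finset.mem_singleton] at hz
  rcases hz with rfl | rfl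
  · exact left_mem_line z b
  · exact right_mem_line a z

/-- The weighted sum over the two-point stabiliser. -/
noncomputable def RR (G : Type*) {Ω : Type*} [Group G] [Fintype G] [MulAction G Ω] [Fintype Ω]
    (a b : Ω) : ℚ :=
  ∑ g ∈ pst G a b, ((Fintype.card Ω : ℚ) / (fixF Ω g).card - 1)

theorem RR_eq {a b : Ω} : RR G a b =
    (Fintype.card Ω : ℚ) * ∑ g ∈ pst G a b, 1 ^ 2 / ((fixF Ω g).card : ℚ) - (pst G a b).card := by
  rw [RR, Finset.sum_sub_distrib, Finset.sum_const, nsmul_eq_mul, mul_one, Finset.mul_sum]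
  congr 1
  refine Finset.sum_congr rfl fun g _ => ?_
  rw [one_pow, mul_one_div]

open Classical in
theorem RR_erase [Nonempty Ω] {a b : Ω} : RR G a b =
    ∑ g ∈ (pst G a b).erase 1, ((Fintype.card Ω : ℚ) / (fixF Ω g).card - 1) := by
  have h : (Fintype.card Ω : ℚ) ≠ 0 := by
    exact_mod_cast Fintype.card_ne_zero
  rw [RR, ← Finset.add_sum_erase _ _ (one_mem_pst a b), fixF_one, Finset.card_univ, div_self h]
  ring

/-- Few orbits: Cauchy–Schwarz. -/
theorem RR_few_orbits {a b : Ω} (hab : a ≠ b) {c : ℕ}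
    (hc : ∑ g ∈ pst G a b, (fixF Ω g).card = c * (pst G a b).card) (h2 : 2 * c ≤ Fintype.card Ω) :
    ((pst G a b).card : ℚ) ≤ RR G a b := by
  have hJ : (0 : ℚ) < (pst G a b).card := by exact_mod_cast pst_card_pos a b
  have hpos : ∀ g ∈ pst G a b, (0 : ℚ) < (fixF Ω g).card := by
    intro g hg
    have := two_le_fix hab hg
    exact_mod_cast (by omega : 0 < (fixF Ω g).card)
  have h1 := Finset.sq_sum_div_le_sum_sq_div (pst G a b) (fun _ => (1 : ℚ)) hpos
  have hc' : ∑ g ∈ pst G a b, ((fixF Ω g).card : ℚ) = c * (pst G a b).card := by exact_mod_cast hc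
  have hcpos : (0 : ℚ) < c := by
    have : 0 < ∑ g ∈ pst G a b, ((fixF Ω g).card : ℚ) :=
      Finset.sum_pos hpos ⟨1, one_mem_pst a b⟩
    rw [hc'] at this
    exact (pos_iff_pos_of_mul_pos this).2 hJ
  rw [hc', Finset.sum_const, nsmul_eq_mul, mul_one] at h1
  rw [RR_eq]
  have h3 : (2 : ℚ) * c ≤ Fintype.card Ω := by exact_mod_cast h2
  have h4 : ((pst G a b).card : ℚ) ^ 2 / (c * (pst G a b).card) = (pst G a b).card / c := by
    field_simp
  rw [h4] at h1
  have h5 : 2 * ((pst G a b).card : ℚ) ≤ (Fintype.card Ω : ℚ) * ((pst G a b).card / c) := by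
    rw [← mul_div_assoc, le_div_iff₀ hcpos]
    nlinarith
  have h6 : (Fintype.card Ω : ℚ) * ((pst G a b).card / c) ≤
      (Fintype.card Ω : ℚ) * ∑ g ∈ pst G a b, 1 ^ 2 / ((fixF Ω g).card : ℚ) :=
    mul_le_mul_of_nonneg_left h1 (Nat.cast_nonneg _)
  linarith

/-- Long lines. -/
theorem RR_long_lines (h2 : TwoT G Ω) [FaithfulSMul G Ω] {a b : Ω} (hab : a ≠ b)
    (hJ : 2 ≤ (pst G a b).card) (hl : 4 ≤ (line G a b).card) :
    ((pst G a b).card : ℚ) ≤ RR G a b := by
  classical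
  have : Nonempty Ω := ⟨a⟩
  rw [RR_erase]
  have h1 : ∀ g ∈ (pst G a b).erase 1, (2 : ℚ) ≤ (Fintype.card Ω : ℚ) / (fixF Ω g).card - 1 := by
    intro g hg
    rw [Finset.mem_erase] at hg
    have h3 := fix_bound h2 hab hg.1
    have h4 := two_le_fix hab hg.2
    have h5 : 3 * (fixF Ω g).card ≤ Fintype.card Ω := by
      have : (fixF Ω g).card * 3 ≤ (fixF Ω g).card * ((line G a b).card - 1) :=
        Nat.mul_le_mul_left _ (by omega)
      omega
    have h6 : (0 : ℚ) < (fixF Ω g).card := by exact_mod_cast (by omega : 0 < (fixF Ω g).card)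
    have h7 : (3 : ℚ) * (fixF Ω g).card ≤ Fintype.card Ω := by exact_mod_cast h5
    have h8 : (3 : ℚ) ≤ (Fintype.card Ω : ℚ) / (fixF Ω g).card := by
      rw [le_div_iff₀ h6]; exact h7
    linarith
  have h9 := Finset.sum_le_sum h1
  rw [Finset.sum_const, nsmul_eq_mul, Finset.card_erase_of_mem (one_mem_pst a b)] at h9
  refine le_trans ?_ h9
  rw [Nat.cast_sub (by omega)]
  have : (2 : ℚ) ≤ (pst G a b).card := by exact_mod_cast hJ
  push_cast
  linarith

/-- Lines of size three, one more orbit than allowed. -/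
theorem RR_three_mid (h2 : TwoT G Ω) [FaithfulSMul G Ω] {a b : Ω} (hab : a ≠ b)
    (hJ : 2 ≤ (pst G a b).card) (hl : (line G a b).card = 3)
    (hS : 2 * ∑ g ∈ pst G a b, (fixF Ω g).card = (Fintype.card Ω + 1) * (pst G a b).card) :
    ((pst G a b).card : ℚ) ≤ RR G a b := by
  classical
  have : Nonempty Ω := ⟨a⟩
  rw [RR_erase]
  set n := Fintype.card Ω with hn
  set J := (pst G a b).card with hJd
  have hpos : ∀ g ∈ (pst G a b).erase 1, (0 : ℚ) < (fixF Ω g).card := by
    intro g hg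
    rw [Finset.mem_erase] at hg
    have := two_le_fix hab hg.2
    exact_mod_cast (by omega : 0 < (fixF Ω g).card)
  have hX : 2 * ∑ g ∈ (pst G a b).erase 1, ((fixF Ω g).card : ℚ) = (n + 1) * J - 2 * n := by
    have e : ∑ g ∈ pst G a b, ((fixF Ω g).card : ℚ) =
        n + ∑ g ∈ (pst G a b).erase 1, ((fixF Ω g).card : ℚ) := by
      rw [← Finset.add_sum_erase _ _ (one_mem_pst a b), fixF_one, Finset.card_univ]
    have e2 : 2 * ∑ g ∈ pst G a b, ((fixF Ω g).card : ℚ) = (n + 1) * J := by exact_mod_cast hS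
    linarith
  have hfb : ∀ g ∈ (pst G a b).erase 1, (2 : ℚ) * (fixF Ω g).card ≤ n - 1 := by
    intro g hg
    rw [Finset.mem_erase] at hg
    have h3 := fix_bound h2 hab hg.1
    rw [hl] at h3
    have h4 := two_le_fix hab hg.2
    have h5 : 2 * (fixF Ω g).card + 1 ≤ n := by omega
    have h6 : (2 : ℚ) * (fixF Ω g).card + 1 ≤ n := by exact_mod_cast h5
    linarith
  have hcard : ((((pst G a b).erase 1).card : ℕ) : ℚ) = (J : ℚ) - 1 := by
    rw [Finset.card_erase_of_mem (one_mem_pst a b), Nat.cast_sub (by omega)]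
    push_cast; rfl
  have hJ2 : (2 : ℚ) ≤ J := by exact_mod_cast hJ
  -- `2 J ≤ n + 1`
  have hJn : 2 * (J : ℚ) ≤ n + 1 := by
    have h3 := Finset.sum_le_sum hfb
    rw [← Finset.mul_sum, Finset.sum_const, nsmul_eq_mul, hcard, hX] at h3
    nlinarith
  have hXpos : (0 : ℚ) < ∑ g ∈ (pst G a b).erase 1, ((fixF Ω g).card : ℚ) := by
    refine Finset.sum_pos hpos ?_
    rw [← Finset.card_pos, Finset.card_erase_of_mem (one_mem_pst a b)]
    omega
  have h1 := Finset.sq_sum_div_le_sum_sq_div ((pst G a b).erase 1) (fun _ => (1 : ℚ)) hpos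
  rw [Finset.sum_const, nsmul_eq_mul, mul_one, hcard] at h1
  have hR : ∑ g ∈ (pst G a b).erase 1, ((n : ℚ) / (fixF Ω g).card - 1) =
      n * ∑ g ∈ (pst G a b).erase 1, 1 ^ 2 / ((fixF Ω g).card : ℚ) - (J - 1) := by
    rw [Finset.sum_sub_distrib, Finset.sum_const, nsmul_eq_mul, mul_one, Finset.mul_sum, hcard]
    congr 1
    refine Finset.sum_congr rfl fun g _ => ?_
    rw [one_pow, mul_one_div]
  rw [hR]
  set X := ∑ g ∈ (pst G a b).erase 1, ((fixF Ω g).card : ℚ) with hXd
  have hn0 : (0 : ℚ) ≤ n := Nat.cast_nonneg _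
  have h5 : 2 * (J : ℚ) - 1 ≤ n * (((J : ℚ) - 1) ^ 2 / X) := by
    rw [← mul_div_assoc, le_div_iff₀ hXpos]
    nlinarith
  have h6 := mul_le_mul_of_nonneg_left h1 hn0
  linarith

end

end Cfsg.Agent.H895
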