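import Mathlib
import Cfsg.Agent.H895.TwoMain

/-!
# 2-transitive groups all of whose lines have three points
-/

set_option autoImplicit false

namespace Cfsg.Agent.H895

open MulAction Finset

section

variable {G Ω : Type*} [Group G] [Fintype G] [MulAction G Ω] [Fintype Ω]

/-- Third point of the line through two points (junk value `x` if there is none). -/
noncomputable def thd (G : Type*) {Ω : Type*} [Group G] [MulAction G Ω] [Fintype Ω] (x y : Ω) : Ω :=
  open Classical in if h : ∃ z, z ∈ line G x y ∧ z ≠ x ∧ z ≠ y then h.choose else x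

omit [Fintype G] in
theorem exists_third (h2 : TwoT G Ω) {a b : Ω} (hab : a ≠ b) (hl : (line G a b).card = 3)
    {x y : Ω} (hxy : x ≠ y) : ∃ z, z ∈ line G x y ∧ z ≠ x ∧ z ≠ y := by
  classical
  have h1 : (line G x y).card = 3 := by rw [line_card_eq h2 hab hxy, hl]
  have h3 : 0 < (((line G x y).erase x).erase y).card := by
    rw [Finset.card_erase_of_mem, Finset.card_erase_of_mem (left_mem_line x y), h1]
    · omega
    · rw [Finset.mem_erase]; exact ⟨hxy.symm, right_mem_line x y⟩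
  rw [Finset.card_pos] at h3
  obtain ⟨z, hz⟩ := h3
  rw [Finset.mem_erase, Finset.mem_erase] at hz
  exact ⟨z, hz.2.2, hz.2.1, hz.1⟩

omit [Fintype G] in
theorem thd_spec (h2 : TwoT G Ω) {a b : Ω} (hab : a ≠ b) (hl : (line G a b).card = 3)
    {x y : Ω} (hxy : x ≠ y) : thd G x y ∈ line G x y ∧ thd G x y ≠ x ∧ thd G x y ≠ y := by
  have h := exists_third h2 hab hl hxy
  rw [thd, dif_pos h]
  exact h.choose_spec

omit [Fintype G] in
theorem thd_unique (h2 : TwoT G Ω) {a b : Ω} (hab : a ≠ b) (hl : (line G a b).card = 3)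
    {x y z : Ω} (hxy : x ≠ y) (hz : z ∈ line G x y) (hzx : z ≠ x) (hzy : z ≠ y) :
    z = thd G x y := by
  classical
  by_contra hne
  obtain ⟨h3, h4, h5⟩ := thd_spec h2 hab hl hxy
  have h1 : (line G x y).card = 3 := by rw [line_card_eq h2 hab hxy, hl]
  have h6 : ({x, y, z, thd G x y} : Finset Ω) ⊆ line G x y := by
    intro u hu
    simp only [Finset.mem_insert, Finset.mem_singleton] at hu
    rcases hu with rfl | rfl | rfl | rfl
    · exact left_mem_line _ _
    · exact right_mem_line _ _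
    · exact hz
    · exact h3
  have h7 := Finset.card_le_card h6
  rw [h1, Finset.card_insert_of_notMem, Finset.card_insert_of_notMem, Finset.card_pair hne] at h7
  · omega
  · simp only [Finset.mem_insert, Finset.mem_singleton, not_or]; exact ⟨hzy.symm, h5.symm⟩
  · simp only [Finset.mem_insert, Finset.mem_singleton, not_or]
    exact ⟨hxy, hzx.symm, h4.symm⟩

theorem thd_thd (h2 : TwoT G Ω) {a b : Ω} (hab : a ≠ b) (hl : (line G a b).card = 3)
    {x y : Ω} (hxy : x ≠ y) : thd G x (thd G x y) = y := by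
  obtain ⟨h3, h4, h5⟩ := thd_spec h2 hab hl hxy
  have h6 := line_eq h2 hxy h4.symm (left_mem_line x y) h3
  exact (thd_unique h2 hab hl h4.symm (by rw [h6]; exact right_mem_line x y) hxy.symm h5.symm).symm

omit [Fintype G] in
theorem fix_thd (h2 : TwoT G Ω) {a b : Ω} (hab : a ≠ b) (hl : (line G a b).card = 3)
    {x y : Ω} (hxy : x ≠ y) {g : G} (hx : g • x = x) (hy : g • y = y) :
    g • thd G x y = thd G x y :=
  mem_line.1 (thd_spec h2 hab hl hxy).1 g hx hy

theorem fix_of_thd (h2 : TwoT G Ω) {a b : Ω} (hab : a ≠ b) (hl : (line G a b).card = 3)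
    {x y : Ω} (hxy : x ≠ y) {g : G} (hx : g • x = x) (hy : g • thd G x y = thd G x y) :
    g • y = y := by
  have := fix_thd h2 hab hl (thd_spec h2 hab hl hxy).2.1.symm hx hy
  rwa [thd_thd h2 hab hl hxy] at this

theorem thd_inj (h2 : TwoT G Ω) {a b : Ω} (hab : a ≠ b) (hl : (line G a b).card = 3)
    {x y y' : Ω} (hxy : x ≠ y) (hxy' : x ≠ y') (h : thd G x y = thd G x y') : y = y' := by
  rw [← thd_thd h2 hab hl hxy, h, thd_thd h2 hab hl hxy']

/-- The index-two property. -/
def IdxTwo (G : Type*) {Ω : Type*} [Group G] [Fintype G] [MulAction G Ω] (a b : Ω) : Prop :=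
  ∀ ω : Ω, ∀ g ∈ pst G a b, ∀ k ∈ pst G a b, ((g * k) • ω = ω ↔ (g • ω = ω ↔ k • ω = ω))

theorem idxTwo_of {a b : Ω} (h : 2 * ∑ g ∈ pst G a b, (fixF Ω g).card =
    (Fintype.card Ω + (line G a b).card) * (pst G a b).card) : IdxTwo G a b := by
  intro ω g hg k hk
  by_cases hω : ω ∈ line G a b
  · have e1 : ∀ g ∈ pst G a b, g • ω = ω := mem_line_iff_pst.1 hω
    rw [mul_smul, e1 k hk, e1 g hg]
    simp
  · exact iff_of_index_two (two_mst_eq h hω) hg hk

omit [Fintype Ω] in
theorem mul_mem_pst {a b : Ω} {g k : G} (hg : g ∈ pst G a b) (hk : k ∈ pst G a b) :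
    g * k ∈ pst G a b := by
  rw [mem_pst] at hg hk ⊢
  exact ⟨by rw [mul_smul, hk.1, hg.1], by rw [mul_smul, hk.2, hg.2]⟩

omit [Fintype Ω] in
theorem mul_self_of_idxTwo [FaithfulSMul G Ω] {a b : Ω} (hI : IdxTwo G a b) {g : G}
    (hg : g ∈ pst G a b) : g * g = 1 := by
  apply FaithfulSMul.eq_of_smul_eq_smul (α := Ω)
  intro ω
  rw [one_smul]
  exact (hI ω g hg g hg).2 Iff.rfl

theorem fix_le_of_idxTwo (h2 : TwoT G Ω) [FaithfulSMul G Ω] {a b : Ω} (hab : a ≠ b)
    (hl : (line G a b).card = 3) (hI : IdxTwo G a b) {g₁ g₂ : G} (h1 : g₁ ∈ pst G a b)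
    (h3 : g₂ ∈ pst G a b) (hg1 : g₁ ≠ 1) (hg2 : g₂ ≠ 1) :
    (fixF Ω g₁).card ≤ (fixF Ω g₂).card := by
  classical
  by_cases h12 : g₁ = g₂
  · rw [h12]
  -- the third element
  have hg3 : g₁ * g₂ ≠ 1 := by
    intro h
    apply h12
    rw [← mul_self_of_idxTwo hI h3] at h
    exact mul_right_cancel h
  have hiff := fun ω => hI ω g₁ h1 g₂ h3
  -- a point fixed by `g₁ g₂` only
  have hw : ∃ w : Ω, (g₁ * g₂) • w = w ∧ g₁ • w ≠ w := by
    by_contra hcon
    push Not at hcon
    obtain ⟨w₁, hw1⟩ := exists_moved (Ω := Ω) hg2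
    obtain ⟨w₂, hw2⟩ := exists_moved (Ω := Ω) hg1
    have e1 : g₁ • w₁ = w₁ := by
      by_contra h
      have h5 := (hiff w₁).2 ⟨fun h' => absurd h' h, fun h' => absurd h' hw1⟩
      exact h (hcon w₁ h5)
    have e2 : g₂ • w₂ = w₂ := by
      by_contra h
      have h5 := (hiff w₂).2 ⟨fun h' => absurd h' hw2, fun h' => absurd h' h⟩
      exact hw2 (hcon w₂ h5)
    have hne : w₁ ≠ w₂ := by
      rintro rfl
      exact hw1 e2
    by_cases h5 : g₁ • thd G w₁ w₂ = thd G w₁ w₂
    · exact hw2 (fix_of_thd h2 hab hl hne e1 h5)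
    · have h6 : g₂ • thd G w₁ w₂ = thd G w₁ w₂ := by
        by_contra h6
        have h7 := (hiff (thd G w₁ w₂)).2 ⟨fun h' => absurd h' h5, fun h' => absurd h' h6⟩
        exact h5 (hcon _ h7)
      -- `g₂` fixes `w₂` and the third point, hence `w₁`
      have h8 : w₁ ∈ line G w₂ (thd G w₁ w₂) := by
        obtain ⟨q1, q2, q3⟩ := thd_spec h2 hab hl hne
        rw [line_eq h2 hne q3.symm (right_mem_line w₁ w₂) q1]
        exact left_mem_line w₁ w₂
      exact hw1 (mem_line.1 h8 g₂ e2 h6)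
  obtain ⟨w, hw3, hw1⟩ := hw
  have hw2 : g₂ • w ≠ w := fun h => hw1 (((hiff w).1 hw3).2 h)
  -- injection
  have hinj : ((fixF Ω g₁) \ (fixF Ω g₂)).card ≤ ((fixF Ω g₂) \ (fixF Ω g₁)).card := by
    refine Finset.card_le_card_of_injOn (fun u => thd G w u) ?_ ?_
    · intro u hu
      rw [Finset.mem_coe, Finset.mem_sdiff, mem_fixF, mem_fixF] at hu
      have hne : w ≠ u := by
        rintro rfl
        exact hw1 hu.1
      have k1 : g₁ • thd G w u ≠ thd G w u := by
        intro h
        obtain ⟨q1, q2, q3⟩ := thd_spec h2 hab hl hne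
        have h8 : w ∈ line G u (thd G w u) := by
          rw [line_eq h2 hne q3.symm (right_mem_line w u) q1]
          exact left_mem_line w u
        exact hw1 (mem_line.1 h8 g₁ hu.1 h)
      have k3 : (g₁ * g₂) • thd G w u ≠ thd G w u := by
        intro h
        have h9 := fix_of_thd h2 hab hl hne hw3 h
        exact hu.2 (((hiff u).1 h9).1 hu.1)
      rw [Finset.mem_coe, Finset.mem_sdiff, mem_fixF, mem_fixF]
      refine ⟨?_, k1⟩
      by_contra k2
      exact k3 ((hiff _).2 ⟨fun h' => absurd h' k1, fun h' => absurd h' k2⟩)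
    · intro u hu u' hu' h
      rw [Finset.mem_coe, Finset.mem_sdiff, mem_fixF, mem_fixF] at hu hu'
      have hne : w ≠ u := by
        rintro rfl
        exact hw1 hu.1
      have hne' : w ≠ u' := by
        rintro rfl
        exact hw1 hu'.1
      exact thd_inj h2 hab hl hne hne' h
  have e1 := Finset.card_sdiff_add_card_inter (fixF Ω g₁) (fixF Ω g₂)
  have e2 := Finset.card_sdiff_add_card_inter (fixF Ω g₂) (fixF Ω g₁)
  rw [Finset.inter_comm] at e2
  omega

end

end Cfsg.Agent.H895
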