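import Mathlib
import Cfsg.Agent.H895.TwoThree

/-!
# 2-transitive groups with lines of size three and elementary abelian two-point stabilisers
-/

set_option autoImplicit false

namespace Cfsg.Agent.H895

open MulAction Finset

section

variable {G Ω : Type*} [Group G] [Fintype G] [MulAction G Ω] [Fintype Ω]

theorem card_group (h2 : TwoT G Ω) {a b : Ω} (hab : a ≠ b) :
    Fintype.card G = (Fintype.card Ω * Fintype.card Ω - Fintype.card Ω) * (pst G a b).card := by
  classical
  have h1 := Finset.card_eq_sum_card_fiberwise (f := fun g : G => (g • a, g • b)) (s := univ)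
    (t := (univ : Finset Ω).offDiag) (by
      intro g _
      rw [Finset.mem_coe, Finset.mem_offDiag]
      exact ⟨mem_univ _, mem_univ _, fun h => hab (MulAction.injective g h)⟩)
  rw [Finset.card_univ] at h1
  rw [h1, Finset.sum_congr rfl (g := fun _ => (pst G a b).card), Finset.sum_const, smul_eq_mul,
    Finset.offDiag_card, Finset.card_univ]
  intro p hp
  rw [Finset.mem_offDiag] at hp
  obtain ⟨k, hk1, hk2⟩ := h2 a b p.1 p.2 hab hp.2.2
  refine (Finset.card_bij' (fun g _ => k * g) (fun g _ => k⁻¹ * g) ?_ ?_ ?_ ?_).symm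
  · intro g hg
    rw [mem_pst] at hg
    rw [Finset.mem_filter]
    refine ⟨mem_univ _, ?_⟩
    simp only [mul_smul, hg.1, hg.2, hk1, hk2]
  · intro g hg
    rw [Finset.mem_filter] at hg
    have h3 := hg.2
    rw [mem_pst, mul_smul, mul_smul, inv_smul_eq_iff, inv_smul_eq_iff, hk1, hk2]
    exact ⟨congrArg Prod.fst h3, congrArg Prod.snd h3⟩
  · intro g _; group
  · intro g _; group

omit [Fintype Ω] in
theorem conj_mem_pst {a b x y : Ω} {k g : G} (hx : k • a = x) (hy : k • b = y)
    (hg : g ∈ pst G x y) : k⁻¹ * g * k ∈ pst G a b := by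
  rw [mem_pst] at hg ⊢
  constructor
  · rw [mul_smul, mul_smul, hx, hg.1, ← hx, inv_smul_smul]
  · rw [mul_smul, mul_smul, hy, hg.2, ← hy, inv_smul_smul]

omit [Fintype G] in
theorem fix_conj' (g k : G) : (fixF Ω (k⁻¹ * g * k)).card = (fixF Ω g).card := by
  have := fixF_conj (Ω := Ω) g k⁻¹
  rwa [inv_inv] at this

/-- A "hyperplane": if `2 f + 1 = n`, any line meets the fixed point set. -/
theorem hyper (h2 : TwoT G Ω) {a b : Ω} (hab : a ≠ b)
    (hl : (line G a b).card = 3) {t : G} (hn : Fintype.card Ω = 2 * (fixF Ω t).card + 1)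
    {w u : Ω} (hw : t • w ≠ w) (hu : t • u ≠ u) (hwu : w ≠ u) : t • thd G w u = thd G w u := by
  classical
  have hmap : ∀ x ∈ fixF Ω t, thd G w x ∈ (univ \ fixF Ω t).erase w := by
    intro x hx
    rw [mem_fixF] at hx
    have hne : w ≠ x := by
      rintro rfl
      exact hw hx
    obtain ⟨q1, q2, q3⟩ := thd_spec h2 hab hl hne
    rw [Finset.mem_erase, Finset.mem_sdiff, mem_fixF]
    refine ⟨q2, mem_univ _, fun h => ?_⟩
    have h8 : w ∈ line G x (thd G w x) := by
      rw [line_eq h2 hne q3.symm (right_mem_line w x) q1]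
      exact left_mem_line w x
    exact hw (mem_line.1 h8 t hx h)
  have hinj : Set.InjOn (fun x => thd G w x) (fixF Ω t) := by
    intro x hx y hy h
    rw [Finset.mem_coe, mem_fixF] at hx hy
    refine thd_inj h2 hab hl ?_ ?_ h
    · rintro rfl
      exact hw hx
    · rintro rfl
      exact hw hy
  have himg : (fixF Ω t).image (fun x => thd G w x) = (univ \ fixF Ω t).erase w := by
    refine Finset.eq_of_subset_of_card_le ?_ ?_
    · intro z hz
      rw [Finset.mem_image] at hz
      obtain ⟨x, hx, rfl⟩ := hz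
      exact hmap x hx
    · rw [Finset.card_image_of_injOn hinj, Finset.card_erase_of_mem, Finset.card_sdiff_of_subset
        (Finset.subset_univ _), Finset.card_univ, hn]
      · omega
      · rw [Finset.mem_sdiff, mem_fixF]; exact ⟨mem_univ _, hw⟩
  have hu' : u ∈ (fixF Ω t).image (fun x => thd G w x) := by
    rw [himg, Finset.mem_erase, Finset.mem_sdiff, mem_fixF]
    exact ⟨hwu.symm, mem_univ _, hu⟩
  rw [Finset.mem_image] at hu'
  obtain ⟨x, hx, rfl⟩ := hu'
  rw [mem_fixF] at hx
  have hne : w ≠ x := by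
    rintro rfl
    exact hw hx
  rw [thd_thd h2 hab hl hne]
  exact hx

theorem two_common (h2 : TwoT G Ω) {a b : Ω} (hab : a ≠ b)
    (hl : (line G a b).card = 3) {t t' : G} (hn : Fintype.card Ω = 2 * (fixF Ω t).card + 1)
    (hn' : Fintype.card Ω = 2 * (fixF Ω t').card + 1) (h5 : 5 ≤ (fixF Ω t).card) :
    ∃ x y : Ω, x ≠ y ∧ t • x = x ∧ t • y = y ∧ t' • x = x ∧ t' • y = y := by
  classical
  have key : 2 ≤ (fixF Ω t ∩ fixF Ω t').card := by
    have e1 := Finset.card_sdiff_add_card_inter (fixF Ω t) (fixF Ω t')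
    rcases Finset.eq_empty_or_nonempty (fixF Ω t \ fixF Ω t') with h | ⟨w, hw⟩
    · rw [h, Finset.card_empty] at e1
      omega
    · have h7 : ((fixF Ω t \ fixF Ω t').erase w).card ≤ (fixF Ω t ∩ fixF Ω t').card := by
        rw [Finset.mem_sdiff, mem_fixF, mem_fixF] at hw
        refine Finset.card_le_card_of_injOn (fun u => thd G w u) ?_ ?_
        · intro u hu
          rw [Finset.mem_coe, Finset.mem_erase, Finset.mem_sdiff, mem_fixF, mem_fixF] at hu
          rw [Finset.mem_coe, Finset.mem_inter, mem_fixF, mem_fixF]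
          exact ⟨fix_thd h2 hab hl hu.1.symm hw.1 hu.2.1,
            hyper h2 hab hl hn' hw.2 hu.2.2 hu.1.symm⟩
        · intro u hu u' hu' h
          rw [Finset.mem_coe, Finset.mem_erase] at hu hu'
          exact thd_inj h2 hab hl hu.1.symm hu'.1.symm h
      rw [Finset.card_erase_of_mem hw] at h7
      omega
  obtain ⟨x, hx, y, hy, hxy⟩ := Finset.one_lt_card.1 key
  rw [Finset.mem_inter, mem_fixF, mem_fixF] at hx hy
  exact ⟨x, y, hxy, hx.1, hy.1, hx.2, hy.2⟩

/-- The extremal configuration with many commuting involutions is impossible. -/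
theorem no_extremal (h2 : TwoT G Ω) [FaithfulSMul G Ω] {a b : Ω} (hab : a ≠ b)
    (hl : (line G a b).card = 3) (hI : IdxTwo G a b) {t : G} (ht : t ∈ pst G a b) (ht1 : t ≠ 1)
    (hn : Fintype.card Ω = 2 * (fixF Ω t).card + 1) (h5 : 5 ≤ (fixF Ω t).card) : False := by
  obtain ⟨y, hy⟩ := exists_moved (Ω := Ω) ht1
  have hay : a ≠ y := by
    rintro rfl
    exact hy (mem_pst.1 ht).1
  obtain ⟨k, hk1, hk2⟩ := h2 y (t • y) a y (Ne.symm hy) hay
  set t' := k * t * k⁻¹ with ht'
  have e1 : t' • a = y := by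
    rw [ht', ← hk1, smul_smul, mul_assoc, inv_mul_cancel, mul_one, mul_smul, hk2]
  have hc : (fixF Ω t').card = (fixF Ω t).card := fixF_conj t k
  obtain ⟨x, z, hxz, h3, h4, h6, h7⟩ := two_common h2 hab hl hn (by rw [hc]; exact hn) h5
  have hsq : ∀ g ∈ pst G x z, g * g = 1 := by
    intro g hg
    obtain ⟨m, hm1, hm2⟩ := h2 a b x z hab hxz
    have h8 := mul_self_of_idxTwo hI (conj_mem_pst hm1 hm2 hg)
    have h9 : m⁻¹ * g * m * (m⁻¹ * g * m) = m⁻¹ * (g * g) * m := by group
    rw [h9] at h8
    have h10 : g * g = m * 1 * m⁻¹ := by rw [← h8]; group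
    rw [h10]; group
  have m1 : t ∈ pst G x z := mem_pst.2 ⟨h3, h4⟩
  have m2 : t' ∈ pst G x z := mem_pst.2 ⟨h6, h7⟩
  have c1 := hsq _ (mul_mem_pst m1 m2)
  have c2 := hsq _ m1
  have c3 := hsq _ m2
  have hcomm : t * t' = t' * t := by
    have d1 : t = t⁻¹ := eq_inv_of_mul_eq_one_left c2
    have d2 : t' = t'⁻¹ := eq_inv_of_mul_eq_one_left c3
    have d3 : t * t' = (t * t')⁻¹ := eq_inv_of_mul_eq_one_left c1
    rw [mul_inv_rev, ← d1, ← d2] at d3
    exact d3
  apply hy
  have e2 : t • a = a := (mem_pst.1 ht).1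
  calc t • y = t • (t' • a) := by rw [e1]
    _ = (t * t') • a := (mul_smul t t' a).symm
    _ = (t' * t) • a := by rw [hcomm]
    _ = t' • (t • a) := mul_smul t' t a
    _ = y := by rw [e2, e1]

/-- There is no group of order 84 acting 2-transitively on 7 points. -/
theorem no_84 (h2 : TwoT G Ω) [FaithfulSMul G Ω] {a b : Ω} (hab : a ≠ b)
    (hn : Fintype.card Ω = 7) (hJ : (pst G a b).card = 2) {t : G} (ht : t ∈ pst G a b)
    (hf : (fixF Ω t).card = 3) : False := by
  classical
  have hG : Nat.card G = 84 := by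
    rw [Nat.card_eq_fintype_card, card_group h2 hab, hn, hJ]
  have : Fact (Nat.Prime 7) := ⟨by norm_num⟩
  obtain ⟨P⟩ : Nonempty (Sylow 7 G) := inferInstance
  have hPc : Nat.card P = 7 := by
    have := P.card_eq_multiplicity
    rw [hG] at this
    have h84 : Nat.factorization 84 7 = 1 := by
      rw [show 84 = 7 * 12 by norm_num, Nat.factorization_mul (by norm_num) (by norm_num)]
      rw [Finsupp.add_apply, Nat.Prime.factorization_self (by norm_num),
        Nat.factorization_eq_zero_of_not_dvd (by norm_num)]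
    rw [h84, pow_one] at this
    exact this
  have hind : (P : Subgroup G).index = 12 := by
    have := (P : Subgroup G).card_mul_index
    rw [hG] at this
    have e : Nat.card (P : Subgroup G) = 7 := hPc
    rw [e] at this
    omega
  have hone : Nat.card (Sylow 7 G) = 1 := by
    have h1 := card_sylow_modEq_one 7 G
    have h3 := P.card_dvd_index
    rw [hind] at h3
    have h4 : Nat.card (Sylow 7 G) ≤ 12 := Nat.le_of_dvd (by norm_num) h3
    interval_cases h : Nat.card (Sylow 7 G) <;> first | rfl | (exfalso; revert h1; decide) | (exfalso; revert h3; decide)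
  have hsub : Subsingleton (Sylow 7 G) := (Nat.card_eq_one_iff_unique.1 hone).1
  have hnorm : (P : Subgroup G).Normal := P.normal_of_subsingleton
  -- no nonidentity element of `P` fixes a point
  have hreg : ∀ z ∈ (P : Subgroup G), z • a = a → z = 1 := by
    intro z hz hza
    by_contra hz1
    have hstab : (stabilizer G a) ⊓ (P : Subgroup G) = P := by
      have hdvd : Nat.card ((stabilizer G a) ⊓ (P : Subgroup G) : Subgroup G) ∣ 7 := by
        have : Nat.card ((stabilizer G a) ⊓ (P : Subgroup G) : Subgroup G) ∣ Nat.card (P : Subgroup G) :=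
          Subgroup.card_dvd_of_le inf_le_right
        have e : Nat.card (P : Subgroup G) = 7 := hPc
        rwa [e] at this
      rcases (Nat.dvd_prime (by norm_num)).1 hdvd with h | h
      · exfalso
        rw [Subgroup.card_eq_one] at h
        have : z ∈ ((stabilizer G a) ⊓ (P : Subgroup G) : Subgroup G) := ⟨hza, hz⟩
        rw [h, Subgroup.mem_bot] at this
        exact hz1 this
      · refine Subgroup.eq_of_le_of_card_ge inf_le_right ?_
        have e : Nat.card (P : Subgroup G) = 7 := hPc
        rw [h, e]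
    obtain ⟨y, hy⟩ := exists_moved (Ω := Ω) hz1
    obtain ⟨k, hk⟩ : ∃ k : G, k • a = y := by
      by_cases h : a = y
      · exact ⟨1, by rw [one_smul, h]⟩
      · obtain ⟨k, hk, _⟩ := h2 a y y a h (Ne.symm h)
        exact ⟨k, hk⟩
    have h8 : k⁻¹ * z * k ∈ (P : Subgroup G) := by
      have := hnorm.conj_mem z hz k⁻¹
      rwa [inv_inv] at this
    rw [← hstab] at h8
    have h9 : (k⁻¹ * z * k) • a = a := h8.1
    rw [mul_smul, mul_smul, hk, inv_smul_eq_iff, hk] at h9
    exact hy h9
  -- the fixed points of `t` correspond to the centralizer of `t` in `P`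
  have hsurj : ∀ ω : Ω, ∃ z ∈ (P : Subgroup G), z • a = ω := by
    have hinj : Function.Injective (fun z : (P : Subgroup G) => (z : G) • a) := by
      intro z z' h
      have h' : ((z' : G)⁻¹ * z) • a = a := by
        rw [mul_smul, inv_smul_eq_iff]; exact h
      have := hreg _ (mul_mem (inv_mem z'.2) z.2) h'
      rw [inv_mul_eq_one] at this
      exact Subtype.ext this.symm
    have hbij := (Fintype.bijective_iff_injective_and_card
      (fun z : (P : Subgroup G) => (z : G) • a)).2 ⟨hinj, by
        rw [hn, ← Nat.card_eq_fintype_card]; exact hPc⟩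
    intro ω
    obtain ⟨z, hz⟩ := hbij.2 ω
    exact ⟨z, z.2, hz⟩
  have hcard : Nat.card ((P : Subgroup G) ⊓ Subgroup.centralizer {t} : Subgroup G) = 3 := by
    rw [← hf]
    have hta : t • a = a := (mem_pst.1 ht).1
    rw [← natCard_fixedBy]
    refine Nat.card_congr (Equiv.ofBijective (fun z => ⟨(z : G) • a, ?_⟩) ⟨?_, ?_⟩)
    · have hz : (z : G) ∈ Subgroup.centralizer {t} := z.2.2
      rw [Subgroup.mem_centralizer_iff] at hz
      have h8 := hz t rfl
      change t • ((z : G) • a) = (z : G) • a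
      rw [smul_smul, h8, mul_smul, hta]
    · intro z z' h
      have h' : (z : G) • a = (z' : G) • a := congrArg Subtype.val h
      have h'' : ((z' : G)⁻¹ * z) • a = a := by
        rw [mul_smul, inv_smul_eq_iff]; exact h'
      have := hreg _ (mul_mem (inv_mem z'.2.1) z.2.1) h''
      rw [inv_mul_eq_one] at this
      exact Subtype.ext this.symm
    · rintro ⟨ω, hω⟩
      obtain ⟨z, hz, rfl⟩ := hsurj ω
      have hω' : t • (z • a) = z • a := hω
      refine ⟨⟨z, hz, ?_⟩, rfl⟩
      change z ∈ Subgroup.centralizer {t}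
      rw [Subgroup.mem_centralizer_iff]
      intro h hh
      rw [Set.mem_singleton_iff] at hh
      subst hh
      have h8 : (z⁻¹ * (h * z * h⁻¹)) • a = a := by
        have : h⁻¹ • a = a := by rw [inv_smul_eq_iff]; exact hta.symm
        rw [mul_smul, mul_smul, mul_smul, this, hω', inv_smul_smul]
      have h9 := hreg _ (mul_mem (inv_mem hz) (hnorm.conj_mem z hz h)) h8
      rw [inv_mul_eq_one] at h9
      conv_rhs => rw [h9]
      group
  have hdvd : Nat.card ((P : Subgroup G) ⊓ Subgroup.centralizer {t} : Subgroup G) ∣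
      Nat.card (P : Subgroup G) := Subgroup.card_dvd_of_le inf_le_left
  have e : Nat.card (P : Subgroup G) = 7 := hPc
  rw [hcard, e] at hdvd
  norm_num at hdvd

/-- Lines of size three, the largest number of orbits. -/
theorem RR_three_top (h2 : TwoT G Ω) [FaithfulSMul G Ω] {a b : Ω} (hab : a ≠ b)
    (hJ : 2 ≤ (pst G a b).card) (hl : (line G a b).card = 3) (h7 : 7 ≤ Fintype.card Ω)
    (hS : 2 * ∑ g ∈ pst G a b, (fixF Ω g).card = (Fintype.card Ω + 3) * (pst G a b).card) :
    ((pst G a b).card : ℚ) ≤ RR G a b := by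
  classical
  have : Nonempty Ω := ⟨a⟩
  have hI : IdxTwo G a b := idxTwo_of (by rw [hl]; exact hS)
  obtain ⟨t, ht, ht1⟩ : ∃ t ∈ pst G a b, t ≠ 1 := by
    obtain ⟨t, ht⟩ : ((pst G a b).erase 1).Nonempty := by
      rw [← Finset.card_pos, Finset.card_erase_of_mem (one_mem_pst a b)]
      omega
    rw [Finset.mem_erase] at ht
    exact ⟨t, ht.2, ht.1⟩
  have hconst : ∀ g ∈ (pst G a b).erase 1, (fixF Ω g).card = (fixF Ω t).card := by
    intro g hg
    rw [Finset.mem_erase] at hg
    exact le_antisymm (fix_le_of_idxTwo h2 hab hl hI hg.2 ht hg.1 ht1)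
      (fix_le_of_idxTwo h2 hab hl hI ht hg.2 ht1 hg.1)
  rw [RR_erase]
  rw [← Finset.add_sum_erase _ _ (one_mem_pst a b), fixF_one, Finset.card_univ,
    Finset.sum_congr rfl hconst, Finset.sum_const, smul_eq_mul,
    Finset.card_erase_of_mem (one_mem_pst a b)] at hS
  rw [Finset.sum_congr rfl (g := fun _ => (Fintype.card Ω : ℚ) / (fixF Ω t).card - 1)
    (fun g hg => by rw [hconst g hg]), Finset.sum_const, nsmul_eq_mul,
    Finset.card_erase_of_mem (one_mem_pst a b)]
  have hf2 := two_le_fix hab ht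
  have hfb := fix_bound h2 hab ht1
  have hdv := dvd_card_sub_one h2 hab
  rw [hl] at hfb hdv
  set n := Fintype.card Ω with hn
  set f := (fixF Ω t).card with hf
  obtain ⟨J, hJd⟩ : ∃ J, (pst G a b).card = J + 1 := ⟨(pst G a b).card - 1, by omega⟩
  rw [hJd] at hS hJ ⊢
  simp only [Nat.add_sub_cancel] at hS ⊢
  obtain ⟨m, hm⟩ := hdv
  have hn' : n = 2 * m + 1 := by omega
  have hfm : f ≤ m := by omega
  -- `2 n + 2 J f = (n+3)(J+1)`
  rcases Nat.lt_or_ge f m with hlt | hge
  · have hfQ : (0 : ℚ) < f := by exact_mod_cast (by omega : 0 < f)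
    have hSQ : 2 * ((n : ℚ) + J * f) = (n + 3) * (J + 1) := by exact_mod_cast hS
    have h3 : (2 : ℚ) * f + 3 ≤ n := by exact_mod_cast (by omega : 2 * f + 3 ≤ n)
    have hJ1 : (1 : ℚ) ≤ J := by exact_mod_cast (by omega : 1 ≤ J)
    -- J (n - 2 f) = n - 3 J - 3
    have h4 : (J : ℚ) * (n - 2 * f) = n - 3 * J - 3 := by linarith
    have h5 : 6 * (J : ℚ) + 3 ≤ n := by nlinarith
    -- goal
    have h6 : ((J : ℚ) + 1) * f ≤ J * (n - f) := by
      have : (f : ℚ) ≤ J * (n - 2 * f) := by
        rw [h4]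
        have h8 : 2 * J * (n - 3 * J - 3 - f) = J * (n - 6 * (J : ℚ) - 3) + (n - 6 * J - 3) := by
          have : 2 * ((J : ℚ) * f) = (n + 3) * (J + 1) - 2 * n := by linarith
          linear_combination - this
        have h9 : (0 : ℚ) ≤ 2 * J * (n - 3 * J - 3 - f) := by
          rw [h8]
          have : 0 ≤ (n : ℚ) - 6 * J - 3 := by linarith
          have := mul_nonneg (by linarith : (0 : ℚ) ≤ J) this
          linarith
        have h10 : (0 : ℚ) ≤ n - 3 * J - 3 - f := by
          by_contra hcon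
          push Not at hcon
          have : 2 * (J : ℚ) * (n - 3 * J - 3 - f) < 0 :=
            mul_neg_of_pos_of_neg (by linarith) hcon
          linarith
        linarith
      linarith
    push_cast
    have h7 : (J : ℚ) * ((n : ℚ) / f - 1) = J * (n - f) / f := by
      field_simp
    rw [h7, le_div_iff₀ hfQ]
    exact h6
  · exfalso
    have hfm' : f = m := by omega
    have hn2 : n = 2 * f + 1 := by omega
    rw [hn2] at hS
    have h4 : f = 2 * J + 1 := by
      have : 2 * (2 * f + 1 + J * f) = 2 * J * f + 4 * f + 2 := by ring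
      rw [this] at hS
      have h5 : (2 * f + 1 + 3) * (J + 1) = 2 * J * f + 2 * f + 4 * J + 4 := by ring
      rw [h5] at hS
      omega
    rcases Nat.lt_or_ge J 2 with hJ2 | hJ2
    · have hJ1 : J = 1 := by omega
      subst hJ1
      exact no_84 h2 hab (by omega) hJd ht (by omega)
    · exact no_extremal h2 hab hl hI ht ht1 hn2 (by omega)

end

end Cfsg.Agent.H895
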