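import Mathlib
import Cfsg.Agent.H895.TwoTop

/-!
# 2-transitive groups with lines of size two
-/

set_option autoImplicit false

namespace Cfsg.Agent.H895

open MulAction Finset

section

variable {G Ω : Type*} [Group G] [Fintype G] [MulAction G Ω] [Fintype Ω]

/-- Fusion in an abelian Sylow 2-subgroup of the point stabiliser. -/
theorem fusion_of_idxTwo (h2 : TwoT G Ω) [FaithfulSMul G Ω] {a b : Ω} (hab : a ≠ b)
    (hl : (line G a b).card = 2) (hI : IdxTwo G a b) (hn : Even (Fintype.card Ω))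
    {x k : G} (hx : x ∈ pst G a b) (hk : k • a = a) (hkx : k⁻¹ * x * k ∈ pst G a b) :
    k⁻¹ * x * k = x := by
  classical
  have hcard : Fintype.card G = (Fintype.card Ω * Fintype.card Ω - Fintype.card Ω) *
      (pst G a b).card := card_group h2 hab
  have hn2 : 2 ≤ Fintype.card Ω := by
    have := Finset.card_le_univ (line G a b)
    omega
  have htr : IsPretransitive G Ω := ⟨fun u v => by
    by_cases huv : u = v
    · exact ⟨1, by rw [one_smul, huv]⟩
    · obtain ⟨g, hg, _⟩ := h2 u v v u huv (Ne.symm huv)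
      exact ⟨g, hg⟩⟩
  have hA : Nat.card (stabilizer G a) = (Fintype.card Ω - 1) * (pst G a b).card := by
    have h3 := (stabilizer G a).card_mul_index
    rw [index_stabilizer_of_transitive, Nat.card_eq_fintype_card (α := G), hcard,
      Nat.card_eq_fintype_card (α := Ω)] at h3
    have h4 : Fintype.card Ω * Fintype.card Ω - Fintype.card Ω =
        (Fintype.card Ω - 1) * Fintype.card Ω := by
      rw [Nat.sub_mul, one_mul]
    rw [h4] at h3
    have h5 : 0 < Fintype.card Ω := by omega
    refine Nat.eq_of_mul_eq_mul_right h5 ?_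
    rw [h3]; ring
  -- the two-point stabiliser as subgroup of the point stabiliser
  set P0 : Subgroup (stabilizer G a) := (pstS G a b).subgroupOf (stabilizer G a) with hP0
  have hP0card : Nat.card P0 = (pst G a b).card := by
    rw [← natCard_pstS]
    exact Nat.card_congr (Subgroup.subgroupOfEquivOfLe (show pstS G a b ≤ stabilizer G a from inf_le_left)).toEquiv
  have hJ := pst_card_pos (G := G) a b
  have hidx : P0.index = Fintype.card Ω - 1 := by
    have h3 := P0.card_mul_index
    rw [hP0card, hA] at h3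
    refine Nat.eq_of_mul_eq_mul_left hJ ?_
    rw [h3]; ring
  have hsq : ∀ g ∈ P0, g * g = 1 := by
    intro g hg
    apply Subtype.ext
    exact mul_self_of_idxTwo hI (mem_pst.2 hg)
  have hP0p : IsPGroup 2 P0 := by
    intro g
    refine ⟨1, ?_⟩
    apply Subtype.ext
    rw [pow_one, pow_two]
    exact hsq g g.2
  have : Fact (Nat.Prime 2) := ⟨Nat.prime_two⟩
  have hodd : ¬ 2 ∣ P0.index := by
    rw [hidx]
    obtain ⟨m, hm⟩ := hn
    omega
  set P : Sylow 2 (stabilizer G a) := hP0p.toSylow hodd with hP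
  have hPmem : ∀ g, g ∈ P ↔ g ∈ P0 := fun g => IsPGroup.mem_toSylow hP0p hodd
  have hcomm0 : ∀ g ∈ P0, ∀ h ∈ P0, g * h = h * g := by
    intro g hg h hh
    have d1 : g = g⁻¹ := eq_inv_of_mul_eq_one_left (hsq g hg)
    have d2 : h = h⁻¹ := eq_inv_of_mul_eq_one_left (hsq h hh)
    have d3 : g * h = (g * h)⁻¹ := eq_inv_of_mul_eq_one_left (hsq _ (mul_mem hg hh))
    rw [mul_inv_rev, ← d1, ← d2] at d3
    exact d3
  have hPc : IsMulCommutative P := ⟨⟨fun g h => Subtype.ext (hcomm0 g ((hPmem _).1 g.2) h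
    ((hPmem _).1 h.2))⟩⟩
  have h3 := P.conj_eq_normalizer_conj_of_mem (⟨x, (mem_pst.1 hx).1⟩ : stabilizer G a)
    (⟨k, hk⟩ : stabilizer G a) ((hPmem _).2 (mem_pst.1 hx)) ((hPmem _).2 (mem_pst.1 hkx))
  obtain ⟨m, hm, hmx⟩ := h3
  -- `m` fixes `b`
  have hmP : m ∈ P0 := by
    have hm' : (m : G) • b ∈ line G a b := by
      rw [mem_line]
      intro g hg1 hg2
      have hgP : (⟨g, hg1⟩ : stabilizer G a) ∈ P := (hPmem _).2 ⟨hg1, hg2⟩
      have h5 : m⁻¹ * (⟨g, hg1⟩ : stabilizer G a) * m ∈ P := by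
        have := (Subgroup.mem_normalizer_iff'.1 hm (m⁻¹ * (⟨g, hg1⟩ : stabilizer G a))).2
        apply this
        rw [← mul_assoc, mul_inv_cancel, one_mul]
        exact hgP
      have h6 := ((hPmem _).1 h5).2
      have h7 : ((m : G)⁻¹ * g * m) • b = b := h6
      rw [mul_smul, mul_smul, inv_smul_eq_iff] at h7
      exact h7
    have hle : line G a b = {a, b} := by
      symm
      refine Finset.eq_of_subset_of_card_le ?_ ?_
      · intro z hz
        rw [Finset.mem_insert, Finset.mem_singleton] at hz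
        rcases hz with rfl | rfl
        · exact left_mem_line z b
        · exact right_mem_line a z
      · rw [hl, Finset.card_pair hab]
    rw [hle, Finset.mem_insert, Finset.mem_singleton] at hm'
    rcases hm' with h | h
    · exfalso
      have : (m : G) • b = (m : G) • a := by rw [h]; exact m.2.symm
      exact hab (MulAction.injective _ this).symm
    · exact ⟨m.2, h⟩
  have h8 : m⁻¹ * (⟨x, (mem_pst.1 hx).1⟩ : stabilizer G a) * m =
      (⟨x, (mem_pst.1 hx).1⟩ : stabilizer G a) := by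
    rw [mul_assoc, hcomm0 _ (mem_pst.1 hx) _ hmP, ← mul_assoc, inv_mul_cancel, one_mul]
  rw [h8] at hmx
  exact congrArg Subtype.val hmx

theorem fix_bound_even (h2 : TwoT G Ω) [FaithfulSMul G Ω] {a b : Ω} (hab : a ≠ b)
    (hl : (line G a b).card = 2) (hI : IdxTwo G a b) (hn : Even (Fintype.card Ω))
    {x : G} (hx : x ∈ pst G a b) (hx1 : x ≠ 1) :
    3 * (fixF Ω x).card ≤ Fintype.card Ω + 2 := by
  classical
  set C : Subgroup G := stabilizer G a ⊓ Subgroup.centralizer {x} with hC
  have hxx := mem_pst.1 hx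
  have hcomm0 : ∀ g ∈ pst G a b, g * x = x * g := by
    intro g hg
    have d1 : g = g⁻¹ := eq_inv_of_mul_eq_one_left (mul_self_of_idxTwo hI hg)
    have d2 : x = x⁻¹ := eq_inv_of_mul_eq_one_left (mul_self_of_idxTwo hI hx)
    have d3 : g * x = (g * x)⁻¹ :=
      eq_inv_of_mul_eq_one_left (mul_self_of_idxTwo hI (mul_mem_pst hg hx))
    rw [mul_inv_rev, ← d1, ← d2] at d3
    exact d3
  have hCmem : ∀ g : G, g ∈ C ↔ g • a = a ∧ x * g = g * x := by
    intro g
    rw [hC, Subgroup.mem_inf, Subgroup.mem_centralizer_iff]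
    constructor
    · rintro ⟨h1, h3⟩; exact ⟨h1, h3 x rfl⟩
    · rintro ⟨h1, h3⟩
      refine ⟨h1, ?_⟩
      intro h hh
      rw [Set.mem_singleton_iff] at hh
      rw [hh]; exact h3
  -- the orbit of `b`
  have horb : (orbit C b) = (((fixF Ω x).erase a : Finset Ω) : Set Ω) := by
    ext ω
    rw [Finset.mem_coe, Finset.mem_erase, mem_fixF]
    constructor
    · rintro ⟨g, rfl⟩
      have hg := (hCmem g).1 g.2
      change (g : G) • b ≠ a ∧ x • (g : G) • b = (g : G) • b
      refine ⟨?_, ?_⟩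
      · intro h
        rw [← hg.1] at h
        exact hab (MulAction.injective _ h).symm
      · rw [smul_smul, hg.2, mul_smul, hxx.2]
    · rintro ⟨h1, h3⟩
      obtain ⟨k, hk1, hk2⟩ := h2 a b a ω hab (Ne.symm h1)
      have h4 : x ∈ pst G a ω := mem_pst.2 ⟨hxx.1, h3⟩
      have h5 := conj_mem_pst hk1 hk2 h4
      have h6 := fusion_of_idxTwo h2 hab hl hI hn hx hk1 h5
      have h7 : x * k = k * x := by
        have : k * (k⁻¹ * x * k) = k * x := by rw [h6]
        rw [← this]; group
      exact ⟨⟨k, (hCmem k).2 ⟨hk1, h7⟩⟩, hk2⟩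
  have hst : Nat.card (stabilizer C b) = (pst G a b).card := by
    rw [← natCard_pstS]
    refine Nat.card_congr ⟨fun g => ⟨g.1.1, ((hCmem _).1 g.1.2).1, g.2⟩,
      fun g => ⟨⟨g.1, (hCmem _).2 ⟨g.2.1, (hcomm0 g.1 (mem_pst.2 g.2)).symm⟩⟩, g.2.2⟩, fun _ => rfl,
      fun _ => rfl⟩
  have hCcard : (pst G a b).card * ((fixF Ω x).card - 1) = Nat.card C := by
    rw [← (stabilizer C b).card_mul_index, hst, index_stabilizer, horb, Set.ncard_coe_finset,
      Finset.card_erase_of_mem (mem_fixF.2 hxx.1)]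
  have hcard : Fintype.card G = (Fintype.card Ω * Fintype.card Ω - Fintype.card Ω) *
      (pst G a b).card := card_group h2 hab
  have hn2 : 2 ≤ Fintype.card Ω := by
    have := Finset.card_le_univ (line G a b)
    omega
  have htr : IsPretransitive G Ω := ⟨fun u v => by
    by_cases huv : u = v
    · exact ⟨1, by rw [one_smul, huv]⟩
    · obtain ⟨g, hg, _⟩ := h2 u v v u huv (Ne.symm huv)
      exact ⟨g, hg⟩⟩
  have hA : Nat.card (stabilizer G a) = (Fintype.card Ω - 1) * (pst G a b).card := by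
    have h3 := (stabilizer G a).card_mul_index
    rw [index_stabilizer_of_transitive, Nat.card_eq_fintype_card (α := G), hcard,
      Nat.card_eq_fintype_card (α := Ω)] at h3
    have h4 : Fintype.card Ω * Fintype.card Ω - Fintype.card Ω =
        (Fintype.card Ω - 1) * Fintype.card Ω := by
      rw [Nat.sub_mul, one_mul]
    rw [h4] at h3
    have h5 : 0 < Fintype.card Ω := by omega
    refine Nat.eq_of_mul_eq_mul_right h5 ?_
    rw [h3]; ring
  have hdvd : Nat.card C ∣ Nat.card (stabilizer G a) := Subgroup.card_dvd_of_le inf_le_left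
  rw [hA, ← hCcard, mul_comm (Fintype.card Ω - 1)] at hdvd
  have hdvd2 := (Nat.mul_dvd_mul_iff_left (pst_card_pos (G := G) a b)).1 hdvd
  obtain ⟨m, hm⟩ := hdvd2
  have hf2 := two_le_fix hab hx
  have hlt : (fixF Ω x).card < Fintype.card Ω := by
    rw [Finset.card_lt_iff_ne_univ]
    intro h
    obtain ⟨z, hz⟩ := exists_moved (Ω := Ω) hx1
    apply hz
    rw [← mem_fixF, h]
    exact mem_univ z
  obtain ⟨r, hr⟩ := hn
  have hm3 : 3 ≤ m := by
    by_contra hcon
    have : m = 0 ∨ m = 1 ∨ m = 2 := by omega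
    rcases this with rfl | rfl | rfl <;> omega
  have : ((fixF Ω x).card - 1) * 3 ≤ ((fixF Ω x).card - 1) * m := Nat.mul_le_mul_left _ hm3
  omega

/-- Lines of size two, even degree. -/
theorem RR_two_even (h2 : TwoT G Ω) [FaithfulSMul G Ω] {a b : Ω} (hab : a ≠ b)
    (hJ : 2 ≤ (pst G a b).card) (hl : (line G a b).card = 2) (h7 : 7 ≤ Fintype.card Ω)
    (hn : Even (Fintype.card Ω))
    (hS : 2 * ∑ g ∈ pst G a b, (fixF Ω g).card = (Fintype.card Ω + 2) * (pst G a b).card) :
    ((pst G a b).card : ℚ) ≤ RR G a b := by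
  classical
  have : Nonempty Ω := ⟨a⟩
  have hI : IdxTwo G a b := idxTwo_of (by rw [hl]; exact hS)
  have hn0 : (0 : ℚ) ≤ Fintype.card Ω := Nat.cast_nonneg _
  rw [RR_erase]
  -- `J` is even
  obtain ⟨ω, hω⟩ : ∃ ω, ω ∉ line G a b := by
    by_contra hcon
    push Not at hcon
    have : line G a b = univ := Finset.eq_univ_iff_forall.2 hcon
    rw [this, Finset.card_univ] at hl
    omega
  have hJe := two_mst_eq (by rw [hl]; exact hS) hω
  rcases Nat.lt_or_ge (pst G a b).card 4 with hlt | hge
  · have hJ2 : (pst G a b).card = 2 := by omega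
    obtain ⟨t, ht⟩ : ((pst G a b).erase 1).Nonempty := by
      rw [← Finset.card_pos, Finset.card_erase_of_mem (one_mem_pst a b)]
      omega
    have hcard1 : ((pst G a b).erase 1).card = 1 := by
      rw [Finset.card_erase_of_mem (one_mem_pst a b)]; omega
    have hes : (pst G a b).erase 1 = {t} := by
      rw [Finset.card_eq_one] at hcard1
      obtain ⟨s, hs⟩ := hcard1
      rw [hs, Finset.mem_singleton] at ht
      rw [hs, ht]
    rw [← Finset.add_sum_erase _ _ (one_mem_pst a b), fixF_one, Finset.card_univ, hes,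
      Finset.sum_singleton, hJ2] at hS
    have hf : (fixF Ω t).card = 2 := by omega
    rw [hes, Finset.sum_singleton, hf, hJ2]
    have : (7 : ℚ) ≤ Fintype.card Ω := by exact_mod_cast h7
    push_cast
    linarith
  · have h1 : ∀ g ∈ (pst G a b).erase 1, (4 / 3 : ℚ) ≤ (Fintype.card Ω : ℚ) / (fixF Ω g).card - 1 := by
      intro g hg
      rw [Finset.mem_erase] at hg
      have h3 := fix_bound_even h2 hab hl hI hn hg.2 hg.1
      have h4 := two_le_fix hab hg.2
      have h6 : (0 : ℚ) < (fixF Ω g).card := by exact_mod_cast (by omega : 0 < (fixF Ω g).card)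
      have h7' : (3 : ℚ) * (fixF Ω g).card ≤ Fintype.card Ω + 2 := by exact_mod_cast h3
      have h8 : (7 : ℚ) ≤ Fintype.card Ω := by exact_mod_cast h7
      have h9 : (7 / 3 : ℚ) ≤ (Fintype.card Ω : ℚ) / (fixF Ω g).card := by
        rw [le_div_iff₀ h6]
        linarith
      linarith
    have h9 := Finset.sum_le_sum h1
    rw [Finset.sum_const, nsmul_eq_mul, Finset.card_erase_of_mem (one_mem_pst a b)] at h9
    refine le_trans ?_ h9
    rw [Nat.cast_sub (by omega)]
    have : (4 : ℚ) ≤ (pst G a b).card := by exact_mod_cast hge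
    push_cast
    linarith

end

end Cfsg.Agent.H895
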